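import Cfsg.Agent.H113.PSU.Chars
import Cfsg.Agent.H211.Dl.Perm
import Cfsg.Agent.H246.Dl.KFix

/-!
# Constituents of even degree of the rank 3 permutation characters of the unitary groups (helper519, for S4769)

* `hasFix_of_perm` : a constituent of a transitive permutation character of degree prime to `r` has fixed vectors under
  all `r`-subgroups;
* `HasFix.of_comp` : quotients;
* `exists_rank3` : the two constituents as characters of the quotient by a normal subgroup acting trivially;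
* `exists_even_fix` : `PSU_4(q)`, `PSU_5(q)`, `q` odd: a character of even degree with fixed vectors under a Sylow
  `r`-subgroup, `r ∣ q`.
-/

set_option autoImplicit false
set_option linter.unusedSectionVars false

open scoped ComplexConjugate
open Cfsg

namespace Cfsg.Agent.H519.Dl

open Cfsg.Agent.Characters Cfsg.Agent.Characters.Core Cfsg.Agent.H246.Dl Cfsg.Agent.H211.Dl
open Cfsg.Agent.H690.Spor.RankThree Cfsg.Agent.H690.Spor.RankThree.R3

section perm

variable {G X : Type*} [Group G] [MulAction G X]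

theorem fixN_stabilizer [Finite X] [MulAction.IsPretransitive G X] (x : X) (g : G) :
    fixN (MulAction.stabilizer G x) g = Nat.card (MulAction.fixedBy X g) := by
  unfold fixN
  let f : G ⧸ MulAction.stabilizer G x → X := MulAction.ofQuotientStabilizer G x
  have hf : Function.Bijective f := by
    refine ⟨MulAction.injective_ofQuotientStabilizer G x, fun y => ?_⟩
    obtain ⟨g, hg⟩ := MulAction.exists_smul_eq G x y
    exact ⟨(g : G ⧸ MulAction.stabilizer G x), hg⟩
  refine Nat.card_congr (Equiv.subtypeEquiv (Equiv.ofBijective f hf) fun a => ?_)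
  rw [MulAction.mem_fixedBy, MulAction.mem_fixedBy, Equiv.ofBijective_apply]
  constructor
  · intro h
    rw [← MulAction.ofQuotientStabilizer_smul, h]
  · intro h
    apply hf.1
    exact (MulAction.ofQuotientStabilizer_smul G x g a).trans h

theorem hasFix_of_perm [Finite G] [Finite X] [MulAction.IsPretransitive G X] [Fintype G] {χ : G → ℂ}
    (hχ : IsIrrCharacter G χ) (hne : classInner (fun x : G => (Nat.card (MulAction.fixedBy X x) : ℂ)) χ ≠ 0) {r : ℕ}
    [Fact r.Prime] (hr : ¬ r ∣ Nat.card X) (S : Subgroup G) (hS : IsPGroup r S) : HasFix χ S := by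
  classical
  have := Fintype.ofFinite X
  obtain ⟨x, hx⟩ := hS.nonempty_fixed_point_of_prime_not_dvd_card X hr
  have hle : S ≤ MulAction.stabilizer G x := fun s hs => hx ⟨s, hs⟩
  have h1 : classInner (fun g : G => (fixN (MulAction.stabilizer G x) g : ℂ)) χ ≠ 0 := by
    simp only [fixN_stabilizer]
    exact hne
  have h2 := sum_ne_zero_of_le (isIrr_isCharacter hχ) hle
    (sum_ne_zero_of_classInner (isIrr_isClassFunction hχ) h1)
  have := Fintype.ofFinite S
  rw [finsum_eq_sum_of_fintype] at h2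
  exact ⟨_, h2⟩

/-- quotients -/
theorem HasFix.of_comp {G' : Type*} [Group G'] [Finite G] {χ : G' → ℂ} (f : G →* G') {S : Subgroup G}
    (h : HasFix (χ ∘ f) S) : HasFix χ (S.map f) := by
  classical
  have : Finite (S.map f) := Finite.of_surjective (f.subgroupMap S) (f.subgroupMap_surjective S)
  have := Fintype.ofFinite (S.map f)
  have := Fintype.ofFinite S
  rw [hasFix_iff] at h ⊢
  intro h0
  apply h
  let g : S →* S.map f := f.subgroupMap S
  have h1 : ∀ s : S, (χ ∘ f) s = χ (g s) := fun s => rfl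
  rw [Finset.sum_congr rfl fun s _ => h1 s, ← Finset.sum_fiberwise Finset.univ g]
  have h2 : ∀ t : S.map f, ∑ s with g s = t, χ (g s) = (Nat.card g.ker : ℂ) * χ t := by
    intro t
    rw [Finset.sum_congr rfl (g := fun _ => χ t) fun s hs => by rw [(Finset.mem_filter.1 hs).2], Finset.sum_const,
      nsmul_eq_mul]
    congr 2
    obtain ⟨s, hs⟩ := f.subgroupMap_surjective S t
    rw [Nat.card_eq_fintype_card, ← Fintype.card_subtype]
    refine Fintype.card_congr
      { toFun := fun u => ⟨s⁻¹ * u.1, ?_⟩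
        invFun := fun k => ⟨s * k.1, ?_⟩
        left_inv := fun u => by simp
        right_inv := fun k => by simp }
    · rw [MonoidHom.mem_ker, map_mul, map_inv, u.2]
      exact inv_mul_eq_one.2 hs
    · rw [map_mul, MonoidHom.mem_ker.1 k.2, mul_one]
      exact hs
  rw [Finset.sum_congr rfl fun t _ => h2 t, ← Finset.mul_sum, h0, mul_zero]

end perm

section rank3

universe u

variable {G : Type u} {X : Type*} [Group G] [MulAction G X] [Finite G] [Finite X]

/-- norm bound -/
theorem norm_le_of_irr {χ : G → ℂ} (hχ : IsIrrCharacter G χ) {d : ℕ} (hd : χ 1 = d) (g : G) : ‖χ g‖ ≤ d := by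
  obtain ⟨n, ρ, hρ, rfl⟩ := hχ
  have h1 := Cfsg.Agent.Characters.Values.norm_character_le ρ g
  have h2 : ((Module.finrank ℂ (Fin n → ℂ) : ℕ) : ℂ) = (d : ℂ) := by rw [← hd, Representation.char_one]
  have h3 : Module.finrank ℂ (Fin n → ℂ) = d := by exact_mod_cast h2
  rw [← h3]
  exact h1

/-- **the two constituents, for the quotient by a normal subgroup acting trivially** -/
theorem exists_rank3 {R : X → X → Prop} {k l : ℕ} (h : R3 G X R k l) (Z : Subgroup G) [Z.Normal]
    (hZ : ∀ z ∈ Z, ∀ x : X, z • x = x) :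
    ∃ (χ₁ χ₂ : (G ⧸ Z) → ℂ) (f g : ℕ), IsIrrCharacter _ χ₁ ∧ IsIrrCharacter _ χ₂ ∧ χ₁ 1 = f ∧ χ₂ 1 = g ∧
      f + g = k + l ∧ ∀ x : G, (Nat.card (MulAction.fixedBy X x) : ℂ) = 1 + χ₁ x + χ₂ x := by
  classical
  have := Fintype.ofFinite X
  obtain ⟨θ₁, θ₂, f, g, -, hf, hg, hfix, hfg, -, -⟩ := h.frame
  have key : ∀ z ∈ Z, (θ₁ : G → ℂ) z = (θ₁ : G → ℂ) 1 ∧ (θ₂ : G → ℂ) z = (θ₂ : G → ℂ) 1 := by
    intro z hz
    have h1 := hfix z
    have h2 : Nat.card (MulAction.fixedBy X z) = Nat.card X := by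
      have : MulAction.fixedBy X z = Set.univ := Set.eq_univ_of_forall (hZ z hz)
      rw [this]
      exact Nat.card_univ
    rw [h2, h.cardn, add_assoc, ← hfg] at h1
    push_cast at h1
    have h3 := norm_le_of_irr θ₁.2 hf z
    have h4 := norm_le_of_irr θ₂.2 hg z
    have h5 : ((θ₁ : G → ℂ) z).re + ((θ₂ : G → ℂ) z).re = f + g := by
      have h6 := congrArg Complex.re h1
      simp only [Complex.add_re, Complex.one_re, Complex.natCast_re] at h6
      linarith
    have h6 := Complex.re_le_norm ((θ₁ : G → ℂ) z)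
    have h7 := Complex.re_le_norm ((θ₂ : G → ℂ) z)
    have aux : ∀ {w : ℂ} {d : ℕ}, ‖w‖ ≤ d → (d : ℝ) ≤ w.re → w = d := by
      intro w d hw hd
      have h8 : w.re = ‖w‖ := le_antisymm (Complex.re_le_norm w) (hw.trans hd)
      have h9 := (Complex.re_eq_norm.1 h8)
      have h10 := (Complex.nonneg_iff.1 h9).2
      apply Complex.ext
      · rw [Complex.natCast_re]
        exact le_antisymm (h8.le.trans hw) hd
      · rw [Complex.natCast_im]
        exact h10.symm
    exact ⟨by rw [hf]; exact aux h3 (by linarith), by rw [hg]; exact aux h4 (by linarith)⟩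
  obtain ⟨η₁, hη₁, hη₁'⟩ := Cfsg.Agent.H477.HC.exists_quot Z θ₁.2 fun z hz => (key z hz).1
  obtain ⟨η₂, hη₂, hη₂'⟩ := Cfsg.Agent.H477.HC.exists_quot Z θ₂.2 fun z hz => (key z hz).2
  refine ⟨η₁, η₂, f, g, hη₁, hη₂, ?_, ?_, hfg, fun x => ?_⟩
  · rw [← hf, ← hη₁' 1]; rfl
  · rw [← hg, ← hη₂' 1]; rfl
  · rw [hfix x, hη₁', hη₂']

/-- **A constituent of even degree.** -/
theorem exists_even_of_rank3 {R : X → X → Prop} {k l : ℕ} (h : R3 G X R k l) (Z : Subgroup G) [Z.Normal]
    (hZ : ∀ z ∈ Z, ∀ x : X, z • x = x) (hodd : Odd (k + l)) {r : ℕ} [Fact r.Prime] (hr : r ∣ k + l)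
    (P : Sylow r (G ⧸ Z)) : ∃ φ : (G ⧸ Z) → ℂ, IsIrrCharacter _ φ ∧ 2 ∣ charDegree φ ∧
      HasFix φ (P : Subgroup (G ⧸ Z)) := by
  classical
  have := Fintype.ofFinite G
  have := h.trans
  obtain ⟨χ₁, χ₂, f, g, h1, h2, hf, hg, hfg, hfix⟩ := exists_rank3 h Z hZ
  let π : G →* G ⧸ Z := QuotientGroup.mk' Z
  have hπ : Function.Surjective π := QuotientGroup.mk'_surjective Z
  have h1' : IsIrrCharacter G (χ₁ ∘ π) := isIrr_comp π hπ h1
  have h2' : IsIrrCharacter G (χ₂ ∘ π) := isIrr_comp π hπ h2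
  have hr' : ¬ r ∣ Nat.card X := by
    rw [h.cardn, add_assoc]
    intro hd
    exact (Fact.out : r.Prime).one_lt.ne' (Nat.dvd_one.1 ((Nat.dvd_add_left hr).1 hd))
  have hsum : (fun x : G => (Nat.card (MulAction.fixedBy X x) : ℂ)) = (1 : G → ℂ) + (χ₁ ∘ π) + (χ₂ ∘ π) := by
    funext x
    exact hfix x
  have hone := isCharacter_one (G := G)
  -- inner products
  have hin : ∀ {α β : G → ℂ}, IsIrrCharacter G α → IsIrrCharacter G β →
      (fun x : G => (Nat.card (MulAction.fixedBy X x) : ℂ)) = (1 : G → ℂ) + α + β →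
      classInner (fun x : G => (Nat.card (MulAction.fixedBy X x) : ℂ)) α ≠ 0 := by
    intro α β hα hβ e
    rw [e, classInner_add_left, classInner_add_left, classInner_irr_self hα]
    obtain ⟨a, ha⟩ := classInner_isNat hone (isIrr_isCharacter hα)
    obtain ⟨b, hb⟩ := classInner_isNat (isIrr_isCharacter hβ) (isIrr_isCharacter hα)
    rw [ha, hb]
    intro h0
    have h3 : a + 1 + b = 0 := by exact_mod_cast h0
    omega
  -- the Sylow subgroup
  obtain ⟨S⟩ : Nonempty (Sylow r G) := inferInstance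
  obtain ⟨x, hx⟩ := MulAction.exists_smul_eq (G ⧸ Z) (S.mapSurjective hπ) P
  have hfixP : ∀ {α : (G ⧸ Z) → ℂ}, IsIrrCharacter _ α →
      classInner (fun x : G => (Nat.card (MulAction.fixedBy X x) : ℂ)) (α ∘ π) ≠ 0 →
      HasFix α (P : Subgroup (G ⧸ Z)) := by
    intro α hα hne
    have h3 := HasFix.of_comp π (hasFix_of_perm (isIrr_comp π hπ hα) hne hr' (S : Subgroup G) S.isPGroup')
    refine HasFix.conj (isIrr_isClassFunction hα) x h3 ?_
    rw [← hx]
    rfl
  have hdeg : ∀ {α : (G ⧸ Z) → ℂ} {d : ℕ}, α 1 = d → charDegree α = d := fun hd => H670.PSing.charDegree_eq_of hd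
  rw [← hfg] at hodd
  rcases Nat.even_or_odd f with hef | hef
  · refine ⟨χ₁, h1, by rw [hdeg hf]; exact hef.two_dvd, hfixP h1 (hin h1' h2' hsum)⟩
  · have heg : Even g := by
      by_contra hcon
      exact (Nat.not_even_iff_odd.2 hodd) (hef.add_odd (Nat.not_even_iff_odd.1 hcon))
    refine ⟨χ₂, h2, by rw [hdeg hg]; exact heg.two_dvd, hfixP h2 (hin h2' h1' ?_)⟩
    rw [hsum]
    ring

end rank3

section psu

universe u

variable {F : Type u} [Field F] [Fintype F] {q m : ℕ}

/-- **the rank 3 character of even degree, with fixed vectors** -/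
theorem exists_even_fix (hF : Fintype.card F = q ^ 2) (hm : m = 2 ∨ m = 3) (hq : Odd q) {r : ℕ} [Fact r.Prime]
    (hr : r ∣ q) (P : Sylow r (PSU (m + 2) F q)) : ∃ φ : PSU (m + 2) F q → ℂ, IsIrrCharacter _ φ ∧
      2 ∣ charDegree φ ∧ HasFix φ (P : Subgroup (PSU (m + 2) F q)) := by
  have hq2 := LieClassical.HermBasic.two_le hF
  obtain ⟨b, hb0, hb, hr3, -⟩ := H113.PSU.Points.r3 (F := F) (m := m) hF (by omega)
  have hqZ : (2 : ℤ) ≤ q := by exact_mod_cast hq2
  have hbe : Even b := by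
    rcases hm with rfl | rfl
    · have h1 : ((q : ℤ) ^ 2 - 1) * b = ((q : ℤ) ^ 2 - 1) * (q + 1) := by rw [hb]; ring
      have h2 := mul_left_cancel₀ (by nlinarith) h1
      have h3 : b = q + 1 := by exact_mod_cast h2
      rw [h3]
      exact hq.add_one
    · have h1 : ((q : ℤ) ^ 2 - 1) * b = ((q : ℤ) ^ 2 - 1) * (q ^ 3 + 1) := by rw [hb]; ring
      have h2 := mul_left_cancel₀ (by nlinarith) h1
      have h3 : b = q ^ 3 + 1 := by exact_mod_cast h2
      rw [h3]
      exact (hq.pow).add_one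
  refine exists_even_of_rank3 hr3 (Subgroup.center (SU (m + 2) F q)) ?_ ?_ ?_ P
  · intro z hz y
    obtain ⟨c, hc, -, hc'⟩ := Cfsg.Agent.ClassicalGeometry.PSUAutBasic.exists_scalar_of_mem_center hF (by omega) hz
    obtain ⟨v, h0, hv, rfl⟩ := H113.PSU.Points.exists_pt y
    rw [H113.PSU.Points.smul_pt, H113.PSU.Points.pt_eq_iff]
    exact ⟨c, hc, hc' v⟩
  · exact (hbe.mul_left _).add_odd hq.pow
  · exact dvd_add ((hr.trans (dvd_pow_self q two_ne_zero)).mul_right _) (hr.trans (dvd_pow_self q (by omega)))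

end psu

end Cfsg.Agent.H519.Dl
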