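import Cfsg.Agent.H519.Dl.Deg

/-!
# S4769 for the unitary groups, `p` different from the characteristic (helper519)

`LinNe` : the bound for linear `p`-groups (task DL-LIN (b)) as a hypothesis;
`dlLe_psu` : the derived length of a Sylow `p`-subgroup of `PSU_n(q)` is at most `log_p n + 1`;
`many_odd`, `many_two` : enough characters; `row_psu_ne` : the row, `PSU_4(q)`, `PSU_5(q)` with `p = 2` as a hypothesis.
-/

set_option autoImplicit false

namespace Cfsg.Agent.H519.Dl

open Cfsg Cfsg.Agent.H246.Dl Cfsg.Agent.H113.PSU.Levi Cfsg.Agent.H477.HC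

universe u v

/-- the derived length of a linear `p`-group, `p` not the characteristic -/
def LinNe : Prop := ∀ (F : Type u) [Field F] [Finite F] (n p : ℕ) [Fact p.Prime], (p : F) ≠ 0 → 0 < n →
  ∀ P : Subgroup (GL (Fin n) F), IsPGroup p ↥P → derivedSeries ↥P (Nat.log p n + 1) = ⊥

section Dl

variable {p : ℕ} [hp : Fact p.Prime] {G : Type u} [Group G] [Finite G] {S : Type v} [Group S]

/-- quotients -/
theorem DlLe.of_surjective {d : ℕ} (f : G →* S) (hf : Function.Surjective f) (h : DlLe p d G) : DlLe p d S := by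
  intro P
  have hfin : Finite S := Finite.of_surjective f hf
  let Q : Sylow p G := default
  let e : ↥(Q.mapSurjective hf : Subgroup S) ≃* ↥(P : Subgroup S) := Sylow.equiv (Q.mapSurjective hf) P
  let g : ↥(Q : Subgroup G) →* ↥(Q.mapSurjective hf : Subgroup S) := f.subgroupMap (Q : Subgroup G)
  have hg : Function.Surjective (e.toMonoidHom.comp g) := by
    intro x
    obtain ⟨y, hy⟩ := f.subgroupMap_surjective (Q : Subgroup G) (e.symm x)
    refine ⟨y, ?_⟩
    change e (g y) = x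
    rw [show g y = e.symm x from hy, e.apply_symm_apply]
  rw [← map_derivedSeries_eq hg, h Q, Subgroup.map_bot]

end Dl

section Unitary

variable {F : Type u} [Field F] [Fintype F] {q n : ℕ}

theorem cast_ne (hF : Fintype.card F = q ^ 2) {p : ℕ} (hp : p.Prime) (hpq : ¬ p ∣ q) : (p : F) ≠ 0 := by
  obtain ⟨r, hr, hc, hrq⟩ := H113.PSU.Facts.prime_pow hF
  intro h
  have h1 : r ∣ p := (CharP.cast_eq_zero_iff F r p).1 h
  exact hpq ((hrq p hp).2 ((Nat.prime_dvd_prime_iff_eq hr hp).1 h1).symm)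

theorem dlLe_su (hl : LinNe.{u}) (hF : Fintype.card F = q ^ 2) (hn : 0 < n) {p : ℕ} [hp : Fact p.Prime]
    (hpq : ¬ p ∣ q) : DlLe p (Nat.log p n + 1) (SU n F q) := by
  refine DlLe.of_hom (Matrix.SpecialLinearGroup.toGL.comp (SU n F q).subtype) (fun g hg _ => ?_) fun Q hQ =>
    hl F n p (cast_ne hF hp.out hpq) hn Q hQ
  apply Subtype.ext
  exact Matrix.SpecialLinearGroup.toGL_injective (by rw [Subgroup.coe_one, map_one]; exact hg)

/-- **the derived length** -/
theorem dlLe_psu (hl : LinNe.{u}) (hF : Fintype.card F = q ^ 2) (hn : 0 < n) {p : ℕ} [hp : Fact p.Prime]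
    (hpq : ¬ p ∣ q) : DlLe p (Nat.log p n + 1) (PSU n F q) :=
  DlLe.of_surjective (QuotientGroup.mk' _) (QuotientGroup.mk'_surjective _) (dlLe_su hl hF hn hpq)

/-- the degrees -/
theorem exists_fun (hF : Fintype.card F = q ^ 2) (hn : 3 ≤ n) : ∃ e : ℕ → ℕ,
    (∀ k, 2 ≤ k → 2 * k ≤ n → ∃ η : PSU n F q → ℂ, IsIrrCharacter _ η ∧ η 1 = e k) ∧
    (∀ j k, 2 ≤ j → j < k → 2 * k ≤ n → e j ≠ e k) ∧
    (∀ k i, 2 ≤ k → 2 * k ≤ n → 2 ≤ i → i < 2 * k → uu q i ∣ e k) ∧
    (∀ k r, 2 ≤ k → 2 * k ≤ n → r.Prime → r ∣ q → ¬ r ∣ e k) := by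
  classical
  have hq : Nat.card F = q ^ 2 := by rw [Nat.card_eq_fintype_card, hF]
  have hq2 := LieClassical.HermBasic.two_le hF
  have hD := degSys (n := n) hF hq
  have h0 : ∀ k, 2 ≤ k → 2 * k ≤ n → ∃ (e t : ℕ), (∃ η : PSU n F q → ℂ, IsIrrCharacter _ η ∧ η 1 = e) ∧
      t ∣ q + 1 ∧ e * t = dg (CForm.hermF F hq n) k := by
    intro k hk hkn
    obtain ⟨η, e, t, h1, h2, h3, h4⟩ := exists_ek hF hq hn hk hkn
    exact ⟨e, t, ⟨η, h1, h2⟩, h3, h4⟩
  choose! e t h1 h2 h3 using h0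
  refine ⟨e, h1, fun j k hj hjk hk => ?_, fun k i hk hkn hi hik => ?_, fun k r hk hkn hr hrq => ?_⟩
  · exact hD.ne hq2 (by omega) hjk hk (h3 j hj (by omega)) (h3 k (by omega) hk) (h2 j hj (by omega)) (h2 k (by omega) hk)
  · exact hD.dvd hq2 (by omega) hkn (h3 k hk hkn) (h2 k hk hkn) hi hik
  · exact hD.not_dvd (by omega) hkn hq2 hr hrq (h3 k hk hkn)

/-- `p` divides `q^(p-1) - 1` -/
theorem dvd_uu_sub {p : ℕ} (hp : p.Prime) (hp2 : p ≠ 2) (hpq : ¬ p ∣ q) (hq : 1 ≤ q) : p ∣ uu q (p - 1) := by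
  have : Fact p.Prime := ⟨hp⟩
  have h1 : Even (p - 1) := by
    obtain ⟨b, hb⟩ := hp.odd_of_ne_two hp2
    exact ⟨b, by omega⟩
  unfold uu
  rw [if_pos h1, ← ZMod.natCast_eq_zero_iff, Nat.cast_sub (Nat.one_le_pow _ _ hq)]
  push_cast
  rw [ZMod.pow_card_sub_one_eq_one, sub_self]
  rwa [Ne, ZMod.natCast_eq_zero_iff]

theorem log_aux {p L : ℕ} (hp : 3 ≤ p) (hL : 2 ≤ L) : 2 * L + p + 1 ≤ p ^ L := by
  induction L, hL using Nat.le_induction with
  | base => nlinarith
  | succ L hL ih =>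
    rw [pow_succ]
    nlinarith

/-- **the characters, `p` odd** -/
theorem many_odd (hF : Fintype.card F = q ^ 2) {p : ℕ} (hp : p.Prime) (hp2 : p ≠ 2) (hpq : ¬ p ∣ q)
    (hn : p ^ 2 ≤ n) : Many p (PSU n F q) (Nat.log p n + 1) := by
  classical
  have hq2 := LieClassical.HermBasic.two_le hF
  have hp3 : 3 ≤ p := by have := hp.two_le; omega
  have hpo := hp.odd_of_ne_two hp2
  have hL : 2 ≤ Nat.log p n := by
    have := Nat.log_mono_right (b := p) hn
    rwa [Nat.log_pow hp.one_lt] at this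
  have h1 := log_aux hp3 hL
  have hn0 : n ≠ 0 := by
    rintro rfl
    have : 0 < p ^ 2 := by positivity
    omega
  have h2 : p ^ Nat.log p n ≤ n := Nat.pow_log_le_self p hn0
  obtain ⟨e, he1, he2, he3, -⟩ := exists_fun (F := F) (q := q) (n := n) hF (by omega)
  obtain ⟨b, hb⟩ := hpo
  have hinj : Set.InjOn e (Finset.Icc (b + 1) (n / 2) : Finset ℕ) := by
    intro j hj k hk hjk
    rw [Finset.coe_Icc, Set.mem_Icc] at hj hk
    rcases lt_trichotomy j k with h | h | h
    · exact absurd hjk (he2 j k (by omega) h (by omega))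
    · exact h
    · exact absurd hjk.symm (he2 k j (by omega) h (by omega))
  have h3 : Many p (PSU n F q) ((Finset.Icc (b + 1) (n / 2)).image e).card := by
    refine Many.of_finset fun d hd => ?_
    obtain ⟨k, hk, rfl⟩ := Finset.mem_image.1 hd
    rw [Finset.mem_Icc] at hk
    exact ⟨(dvd_uu_sub hp hp2 hpq (by omega)).trans (he3 k (p - 1) (by omega) (by omega) (by omega) (by omega)),
      he1 k (by omega) (by omega)⟩
  rw [Finset.card_image_of_injOn hinj, Nat.card_Icc] at h3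
  exact h3.mono (by omega)

/-- parity of `(q^(2b) - 1) / (q^2 - 1)` -/
theorem parity (hq2 : 2 ≤ q) (hqo : ¬ 2 ∣ q) {b x : ℕ} (hx : uu q (2 * b) = (q ^ 2 - 1) * x) : x % 2 = b % 2 := by
  have h4 := pow_ge_four hq2 le_rfl
  have h1 : ∀ b : ℕ, ∃ s, (q ^ 2) ^ b = (q ^ 2 - 1) * s + 1 ∧ s % 2 = b % 2 := by
    intro b
    induction b with
    | zero => exact ⟨0, by simp, rfl⟩
    | succ b ih =>
      obtain ⟨s, hs, hs2⟩ := ih
      obtain ⟨z, hz⟩ : ∃ z, q ^ 2 = z + 1 := ⟨q ^ 2 - 1, by omega⟩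
      refine ⟨s * q ^ 2 + 1, ?_, ?_⟩
      · rw [pow_succ, hs, hz, Nat.add_sub_cancel]; ring
      · have h5 : q ^ 2 % 2 = 1 := by
          rw [Nat.pow_mod]
          have : q % 2 = 1 := by omega
          rw [this]
        rw [Nat.add_mod, Nat.mul_mod, h5, hs2]
        omega
  obtain ⟨s, hs, hs2⟩ := h1 b
  rw [uu_two_mul, pow_mul, hs, Nat.add_sub_cancel] at hx
  have h5 := Nat.eq_of_mul_eq_mul_left (by omega : 0 < q ^ 2 - 1) hx
  omega

/-- **a rank 3 character of even degree** -/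
theorem exists_even (hF : Fintype.card F = q ^ 2) (hn : 4 ≤ n) (hqo : ¬ 2 ∣ q) :
    ∃ φ : IrrCharacter (PSU n F q), 2 ∣ charDegree (φ : PSU n F q → ℂ) ∧ q ∣ charDegree (φ : PSU n F q → ℂ) := by
  have hq2 := LieClassical.HermBasic.two_le hF
  have key : ∀ {k b c D : ℕ}, 1 ≤ k → Even b → (q ^ 2 - 1) * (q + 1) * D = q ^ k * uu q (2 * b) * uu q c →
      2 ∣ D ∧ q ∣ D := by
    intro k b c D hk hb h
    obtain ⟨x, w, hx, hw, rfl⟩ := H113.PSU.Facts.cancel hq2 (even_two_mul b) h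
    have h1 := parity hq2 hqo hx
    obtain ⟨b', hb'⟩ := hb
    have h2 : 2 ∣ x := by omega
    exact ⟨(h2.mul_left _).mul_right _, ((dvd_pow_self q (by omega)).mul_right _).mul_right _⟩
  obtain ⟨φF, hφF⟩ := H113.PSU.Facts.exF (F := F) hF hn
  obtain ⟨φG, hφG⟩ := H113.PSU.Facts.exG (F := F) hF hn
  rcases Nat.even_or_odd' n with ⟨m, hm | hm⟩
  · by_cases h : Even m
    · refine ⟨φF, key (k := 2) (b := m) (c := n - 3) (by omega) h ?_⟩
      rw [hφF, ← hm]
    · refine ⟨φG, key (k := 3) (b := m - 1) (c := n - 1) (by omega) ?_ ?_⟩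
      · obtain ⟨s, hs⟩ := Nat.not_even_iff_odd.1 h
        exact ⟨s, by omega⟩
      · rw [hφG, show n - 2 = 2 * (m - 1) by omega]; ring
  · by_cases h : Even m
    · refine ⟨φG, key (k := 3) (b := m) (c := n - 2) (by omega) h ?_⟩
      rw [hφG, show n - 1 = 2 * m by omega]
    · refine ⟨φF, key (k := 2) (b := m - 1) (c := n) (by omega) ?_ ?_⟩
      · obtain ⟨s, hs⟩ := Nat.not_even_iff_odd.1 h
        exact ⟨s, by omega⟩
      · rw [hφF, show n - 3 = 2 * (m - 1) by omega]; ring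

/-- **the characters, `p = 2`** -/
theorem many_two (hF : Fintype.card F = q ^ 2) (hqo : ¬ 2 ∣ q) (hn : 4 ≤ n) : Many 2 (PSU n F q) (n / 2) := by
  classical
  have hq2 := LieClassical.HermBasic.two_le hF
  obtain ⟨e, he1, he2, he3, he4⟩ := exists_fun (F := F) (q := q) (n := n) hF (by omega)
  obtain ⟨φ, hφ2, hφq⟩ := exists_even (F := F) hF hn hqo
  obtain ⟨r, hr, hrq⟩ := Nat.exists_prime_and_dvd (show q ≠ 1 by omega)
  have hinj : Set.InjOn e (Finset.Icc 2 (n / 2) : Finset ℕ) := by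
    intro j hj k hk hjk
    rw [Finset.coe_Icc, Set.mem_Icc] at hj hk
    rcases lt_trichotomy j k with h | h | h
    · exact absurd hjk (he2 j k (by omega) h (by omega))
    · exact h
    · exact absurd hjk.symm (he2 k j (by omega) h (by omega))
  have hnot : charDegree (φ : PSU n F q → ℂ) ∉ (Finset.Icc 2 (n / 2)).image e := by
    intro h
    obtain ⟨k, hk, hk'⟩ := Finset.mem_image.1 h
    rw [Finset.mem_Icc] at hk
    exact he4 k r (by omega) (by omega) hr hrq (by rw [hk']; exact hrq.trans hφq)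
  have h2 : 2 ∣ uu q 2 := by
    have h3 : uu q 2 = q ^ 2 - 1 := uu_two_mul 1
    have h4 : q ^ 2 % 2 = 1 := by
      rw [Nat.pow_mod]
      have : q % 2 = 1 := by omega
      rw [this]
    have h5 := pow_ge_four hq2 le_rfl
    omega
  have h3 : Many 2 (PSU n F q) (insert (charDegree (φ : PSU n F q → ℂ)) ((Finset.Icc 2 (n / 2)).image e)).card := by
    refine Many.of_finset fun d hd => ?_
    rcases Finset.mem_insert.1 hd with rfl | hd
    · exact ⟨hφ2, φ, φ.2, Blocks.Knorr.charDegree_eq φ.2⟩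
    · obtain ⟨k, hk, rfl⟩ := Finset.mem_image.1 hd
      rw [Finset.mem_Icc] at hk
      exact ⟨h2.trans (he3 k 2 (by omega) (by omega) le_rfl (by omega)), he1 k (by omega) (by omega)⟩
  rw [Finset.card_insert_of_notMem hnot, Finset.card_image_of_injOn hinj, Nat.card_Icc] at h3
  exact h3.mono (by omega)

theorem log_two_aux {n : ℕ} (hn : 6 ≤ n) : Nat.log 2 n + 1 ≤ n / 2 := by
  rcases Nat.lt_or_ge n 8 with h | h
  · have h1 : Nat.log 2 n = 2 := by
      rw [Nat.log_eq_iff (Or.inl (by norm_num))]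
      omega
    omega
  · have hL : 3 ≤ Nat.log 2 n := by
      have := Nat.log_mono_right (b := 2) h
      rwa [show (8 : ℕ) = 2 ^ 3 by norm_num, Nat.log_pow (by norm_num)] at this
    have h2 : 2 ^ Nat.log 2 n ≤ n := Nat.pow_log_le_self 2 (by omega)
    have h3 : ∀ L : ℕ, 3 ≤ L → 2 * (L + 1) ≤ 2 ^ L := by
      intro L hL
      induction L, hL using Nat.le_induction with
      | base => norm_num
      | succ L hL ih => rw [pow_succ]; omega
    have h4 := h3 _ hL
    omega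

/-- **The row `PSU_n(q)`, `p` not the characteristic.** -/
theorem row_psu_ne (hl : LinNe.{u}) (hF : Fintype.card F = q ^ 2) (hn : 3 ≤ n) {p : ℕ} (hp : p.Prime)
    (hpq : ¬ p ∣ q) (htwo : H596.OneFacts.Two p (PSU n F q))
    (h45 : p = 2 → n = 4 ∨ n = 5 → Many 2 (PSU n F q) 3) : Row p (PSU n F q) := by
  have : Fact p.Prime := ⟨hp⟩
  have hdl := dlLe_psu (F := F) (q := q) (n := n) hl hF (by omega) (p := p) hpq
  by_cases hsmall : Nat.log p n ≤ 1
  · exact Row.of_twoStrict (hdl.mono (by omega)) htwo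
  · by_cases hp2 : p = 2
    · subst hp2
      rcases Nat.lt_or_ge n 6 with h | h
      · rcases Nat.lt_or_ge n 4 with h' | h'
        · have h3 : n = 3 := by omega
          subst h3
          exfalso
          apply hsmall
          have : Nat.log 2 3 = 1 := by
            rw [Nat.log_eq_iff (Or.inl (by norm_num))]
            omega
          omega
        · have h1 : Nat.log 2 n = 2 := by
            rw [Nat.log_eq_iff (Or.inl (by norm_num))]
            omega
          exact Row.of_le hdl (h45 rfl (by omega)) (by omega)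
      · exact Row.of_le hdl (many_two hF hpq (by omega)) (log_two_aux h)
    · have hn2 : p ^ 2 ≤ n := by
        rw [← Nat.le_log_iff_pow_le hp.one_lt (by omega)]
        omega
      exact Row.of_le hdl (many_odd hF hp hp2 hpq hn2) le_rfl

end Unitary

end Cfsg.Agent.H519.Dl
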