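import Cfsg.Agent.H519.Dl.PsuSmall
import Cfsg.Agent.H519.Dl.Row
import Cfsg.Agent.H755.Dl.Lin
import Cfsg.Agent.H759.Dl.Small
import Cfsg.Agent.H64.Dl.Tor

/-!
# The row of S4769 for the unitary groups, `p` not the characteristic (helper519)

* `linNe`, `dlLe` : `DlLe p (log_p n + 1) (PSU_n(q))`;
* `many` : enough characters if `log_p n ≥ 2`;
* `not_comm`;
* **`row_psu_ne_all`** : the row.
-/

set_option autoImplicit false

namespace Cfsg.Agent.H519.Dl

open Cfsg Cfsg.Agent.H246.Dl Cfsg.Agent.H113.PSU.Levi Cfsg.Agent.H477.HC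

universe u v

theorem linNe : LinNe.{u} := by
  intro F _ _ n p _ hpF _ P hP
  have : Fintype F := Fintype.ofFinite F
  have : Finite (GL (Fin n) F) := inferInstance
  exact H755.Dl.derivedSeries_ne hpF P hP

section Unitary

variable {F : Type u} [Field F] [Fintype F] {q n : ℕ}

theorem dlLe (hF : Fintype.card F = q ^ 2) (hn : 3 ≤ n) {p : ℕ} (hp : p.Prime) (hpq : ¬ p ∣ q) :
    DlLe p (Nat.log p n + 1) (PSU n F q) := by
  have : Fact p.Prime := ⟨hp⟩
  exact dlLe_psu (F := F) (q := q) (n := n) linNe hF (by omega) (p := p) hpq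

theorem odd_of_not_dvd {q : ℕ} (h : ¬ 2 ∣ q) : Odd q := by
  rw [← Nat.not_even_iff_odd, even_iff_two_dvd]
  exact h

/-- **enough characters** -/
theorem many (hF : Fintype.card F = q ^ 2) (hn : 3 ≤ n) {p : ℕ} (hp : p.Prime) (hpq : ¬ p ∣ q)
    (hL : 2 ≤ Nat.log p n) : Many p (PSU n F q) (Nat.log p n + 1) := by
  have : Fact p.Prime := ⟨hp⟩
  by_cases hp2 : p = 2
  · subst hp2
    rcases Nat.lt_or_ge n 6 with h | h
    · rcases Nat.lt_or_ge n 4 with h' | h'
      · have h3 : n = 3 := by omega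
        subst h3
        exfalso
        have : Nat.log 2 3 = 1 := by
          rw [Nat.log_eq_iff (Or.inl (by norm_num))]
          omega
        omega
      · have h1 : Nat.log 2 n = 2 := by
          rw [Nat.log_eq_iff (Or.inl (by norm_num))]
          omega
        rw [h1]
        exact many_small hF (by omega) (odd_of_not_dvd hpq)
    · exact (many_two hF hpq (by omega)).mono (log_two_aux h)
  · have hn2 : p ^ 2 ≤ n := by
      rw [← Nat.le_log_iff_pow_le hp.one_lt (by omega)]
      exact hL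
    exact many_odd hF hp hp2 hpq hn2

end Unitary

section NotComm

open Cfsg.Agent.H50.Her Cfsg.Agent.H742

variable {F : Type u} [Field F] [Fintype F] {q : ℕ}

theorem not_comm_of_pan {r l : ℕ} {M : CoxeterMatrix (Fin l)} {y : Fin l → ℕ} {G : Type*} [Group G] [Finite G]
    (h : HasPan r M y G) (hl : 0 < l) : ¬ IsMulCommutative G := by
  intro hc
  obtain ⟨A, hA, T, n, X, hW, R, -⟩ := h
  apply H64.Dl.X_ne R (⟨0, hl⟩ : Fin l)
  rw [← H64.Dl.cj_n R]
  ext g
  rw [Nodes.Reps.mem_cj]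
  have h1 : ∀ a b : G, a * b = b * a := hc.is_comm.comm
  rw [h1 _ g, mul_assoc, inv_mul_cancel, mul_one]

theorem not_comm {n : ℕ} (hF : Fintype.card F = q ^ 2) (hn : 3 ≤ n) : ¬ IsMulCommutative (PSU n F q) := by
  obtain ⟨r, hr⟩ := CharP.exists F
  have : Fact r.Prime := ⟨CharP.char_is_prime F r⟩
  rcases Nat.even_or_odd' n with ⟨m, rfl | rfl⟩
  · exact not_comm_of_pan (pan_psu_even hF (m := m) (by omega) (p := r)) (by omega)
  · exact not_comm_of_pan (pan_psu_odd hF (m := m) (by omega) (p := r)) (by omega)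

end NotComm

/-- **The row, `p` not the characteristic.** -/
theorem row_psu_ne_all (T : H596.OneFacts.FactTwo.{u}) (I : H671.H5.FactIM.{u}) {F : Type} [Field F] [Fintype F]
    {q n : ℕ} (hF : Fintype.card F = q ^ 2) (hn : 3 ≤ n) {S : Type u} [Group S] [Finite S] [IsSimpleGroup S]
    (iso : S ≃* PSU n F q) {p : ℕ} (hp : p.Prime) (hd : p ∣ Nat.card S) (hpq : ¬ p ∣ q) : Row p S := by
  have : Fact p.Prime := ⟨hp⟩
  have hL := dlLe (F := F) hF hn hp hpq
  rcases Nat.lt_or_ge (Nat.log p n) 2 with h | h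
  · refine H759.Dl.row_of_dl_two T I (fun h1 => not_comm (F := F) hF hn ⟨⟨fun a b => iso.symm.injective ?_⟩⟩) hp hd
      ((hL.of_equiv iso).mono (by omega))
    rw [map_mul, map_mul]
    exact h1.is_comm.comm _ _
  · exact Row.of_equiv iso (Row.of_le hL (many hF hn hp hpq h) le_rfl)

end Cfsg.Agent.H519.Dl
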