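import Cfsg.Agent.H519.Dl.RankTwo
import Cfsg.Agent.H519.Dl.WittTor
import Cfsg.Agent.H519.Dl.PermEven
import Cfsg.Agent.H742.PanU
import Cfsg.Agent.KFacts.RgdFilt

/-!
# `PSU_4(q)`, `PSU_5(q)`, `q` odd, `p = 2` (helper519, for S4769)

`many_small` : there are three irreducible characters of even degree which are not conjugate under automorphisms.
-/

set_option autoImplicit false
set_option linter.unusedSectionVars false

namespace Cfsg.Agent.H519.Dl

open Cfsg
open CoxeterSystem Cfsg.Agent.ChevalleyStructure.CoxeterGeom Cfsg.Agent.Tits.Roots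
  Cfsg.Agent.Nodes.Comb Cfsg.Agent.Nodes.Reps Cfsg.Agent.Nodes.BNOf
  Cfsg.Agent.Nodes.RGDLib Cfsg.Agent.Nodes.TypeC
open Cfsg.Agent.Nodes Cfsg.Agent.Nodes.WittAll Cfsg.Agent.Nodes.WittU Cfsg.Agent.Nodes.WittInst
  Cfsg.Agent.Nodes.WittRoot
  Cfsg.Agent.TitsThree Cfsg.Agent.TitsThree.Siegel Cfsg.Agent.TitsThree.SiegelGen
  Cfsg.Agent.TitsThree.WittFrame Cfsg.Agent.TitsThree.WBridge Cfsg.Agent.TitsThree.WittWeyl
  Cfsg.Agent.TitsThree.FrameCN
open Cfsg.Agent.LieClassical.HermBasic Cfsg.Agent.TitsThree.KSideU Cfsg.Agent.H742 Cfsg.Agent.H246.Dl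
open Cfsg.Agent.Nodes.WittRGD (Tor mem_Tor)

universe u

variable {F : Type u} [Field F] [Fintype F] {q : ℕ}

/-- an element of 2-power order -/
theorem exists_two_elt (hF : Fintype.card F = q ^ 2) (hq : Odd q) : ∃ (k : ℕ) (t : F), t ≠ 0 ∧ t ^ 2 ^ k = 1 ∧
    t ^ 2 ≠ 1 ∧ t * t ^ q ≠ 1 := by
  classical
  have hq2 := two_le hF
  have hq3 : 3 ≤ q := by
    obtain ⟨c, hc⟩ := hq
    omega
  obtain ⟨g, hg⟩ := IsCyclic.exists_generator (α := Fˣ)
  have hord : orderOf g = q ^ 2 - 1 := by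
    rw [orderOf_eq_card_of_forall_mem_zpowers hg, Nat.card_eq_fintype_card, Fintype.card_units, hF]
  have hpos : q ^ 2 - 1 ≠ 0 := by
    have : 3 ^ 2 ≤ q ^ 2 := Nat.pow_le_pow_left hq3 2
    omega
  obtain ⟨k, o, ho, hko⟩ := Nat.exists_eq_two_pow_mul_odd hpos
  have hfac : q ^ 2 - 1 = (q - 1) * (q + 1) := by
    obtain ⟨c, rfl⟩ : ∃ c, q = c + 1 := ⟨q - 1, by omega⟩
    have : (c + 1) ^ 2 - 1 = c * (c + 2) := by
      have e : (c + 1) ^ 2 = c * (c + 2) + 1 := by ring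
      rw [e, Nat.add_sub_cancel]
    rw [this]
    rfl
  have hopos : 0 < o := ho.pos
  have h8 : 4 ∣ 2 ^ k := by
    have h1 : 4 ∣ q ^ 2 - 1 := by
      obtain ⟨c, rfl⟩ := hq
      rw [hfac]
      exact ⟨c * (c + 1), by
        have e1 : 2 * c + 1 - 1 = 2 * c := by omega
        rw [e1]; ring⟩
    rw [hko] at h1
    have h2 : Nat.Coprime 4 o := by
      rw [show 4 = 2 ^ 2 by norm_num]
      exact Nat.Coprime.pow_left 2 ((Nat.coprime_two_left).2 ho)
    exact h2.dvd_of_dvd_mul_right h1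
  refine ⟨k, ((g ^ o : Fˣ) : F), Units.ne_zero _, ?_, ?_, ?_⟩
  · rw [← Units.val_pow_eq_pow_val, ← pow_mul, mul_comm, ← hko, ← hord, pow_orderOf_eq_one, Units.val_one]
  · intro h1
    rw [← Units.val_pow_eq_pow_val, Units.val_eq_one, ← pow_mul] at h1
    have h2 := orderOf_dvd_of_pow_eq_one h1
    rw [hord, hko, mul_comm o 2] at h2
    have h3 := Nat.dvd_of_mul_dvd_mul_right hopos h2
    have h4 := h8.trans h3
    exact absurd h4 (by decide)
  · intro h1
    have h2 : ((g ^ (o * (q + 1)) : Fˣ) : F) = 1 := by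
      rw [← h1, mul_add, mul_one, pow_add, Units.val_mul, pow_mul, Units.val_pow_eq_pow_val, mul_comm]
    rw [Units.val_eq_one] at h2
    have h3 := orderOf_dvd_of_pow_eq_one h2
    rw [hord, hko, mul_comm o (q + 1)] at h3
    obtain ⟨c, hc⟩ := Nat.dvd_of_mul_dvd_mul_right hopos h3
    rw [hfac, hc] at hko
    have h4 : 2 ^ k * ((q - 1) * c) = 2 ^ k * o := by rw [← hko]; ring
    have h5 := Nat.eq_of_mul_eq_mul_left (by positivity) h4
    have h6 : Even (q - 1) := Nat.Odd.sub_odd hq odd_one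
    exact (Nat.not_even_iff_odd.2 ho) (by rw [← h5]; exact h6.mul_right c)

/-- **a frame of index two** -/
theorem many_of_frame {m : ℕ} (hF : Fintype.card F = q ^ 2) (hm : m = 2 ∨ m = 3) (hq : Odd q)
    (W : WFrame (PU hF (m + 2)) 2) (hadm : Nat.card (toFrame W).Adm ≠ q ^ 2) (hadm2 : 2 ≤ Nat.card (toFrame W).Adm) :
    Many 2 (PSU (m + 2) F q) 3 := by
  classical
  have hq2 := two_le hF
  obtain ⟨r, hr⟩ := CharP.exists F
  have hrp : r.Prime := CharP.char_is_prime F r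
  have : Fact r.Prime := ⟨hrp⟩
  have hrq : r ∣ q := by
    have h1 : r ∣ Fintype.card F := by
      rw [← CharP.cast_eq_zero_iff F r]
      exact Nat.cast_card_eq_zero F
    rw [hF] at h1
    exact hrp.dvd_of_dvd_pow h1
  have h2r : (2 : ℕ) ≠ r := by
    rintro rfl
    exact (Nat.not_even_iff_odd.2 hq) (even_iff_two_dvd.2 hrq)
  obtain ⟨p0, hp0, -⟩ := exists_adm hF W
  have hA := AmbT.of_amb (amb_U hF W) r
  let M := KInstU.model hF (by omega) W
  have R := rgdC_model M hA hp0 (CoxeterMatrix.B 2).toCoxeterSystem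
  have hW : Finite (CoxeterMatrix.B 2).Group := TypeC.finite_W (CoxeterMatrix.B 2).toCoxeterSystem
  have hG := Cfsg.Agent.KFacts.RgdFilt.GG_eq_top (T := WittModel.T M)
    (WittModel.G1_eq_top M (by omega) (CoxeterMatrix.B 2).toCoxeterSystem)
  have hT : ∀ s ∈ WittModel.T M, ∀ t ∈ WittModel.T M, s * t = t * s := by
    rintro _ ⟨s, hs, rfl⟩ _ ⟨t, ht, rfl⟩
    rw [← map_mul, ← map_mul]
    congr 1
    exact Subtype.ext (H716.RGDAb.tor_comm_of hA.V0 (Subgroup.mem_subgroupOf.1 hs) (Subgroup.mem_subgroupOf.1 ht)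
      (comm_V0_U hF (by omega) W hA (Subgroup.mem_subgroupOf.1 hs) (Subgroup.mem_subgroupOf.1 ht)))
  obtain ⟨k, t, ht0, ht, ht2, htσ⟩ := exists_two_elt (F := F) hF hq
  obtain ⟨Q, hQ, hQT, hQC⟩ := WittTor.exists_QC M hA hp0 (CoxeterMatrix.B 2).toCoxeterSystem le_rfl hT (ℓ := 2) ht0 ht
    ht2 htσ
  obtain ⟨P, hP⟩ := BpExc.TorRgd.exists_sylow_eq R hG
  obtain ⟨φ, hφ, hφ2, hφU⟩ := exists_even_fix (F := F) hF hm hq hrq P
  rw [hP] at hφU
  have hX0 : Nat.card (WittModel.X M (sr (0 : Fin 2))) = q ^ 2 := by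
    rw [card_X_of_lt M (by norm_num), Nat.card_eq_fintype_card, hF]
  have hX1 : Nat.card (WittModel.X M (sr (1 : Fin 2))) = Nat.card (toFrame W).Adm := card_X_last M (by norm_num)
  refine many_two_nodes R hG hT h2r Q hQ hQT hQC (i := 0) (j := 1) ?_ ?_ ?_ hφ hφ2 hφU
  · rw [hX0]
    nlinarith
  · rw [hX1]
    exact hadm2
  · rw [hX0, hX1]
    exact hadm.symm

/-- **`PSU_4(q)`, `PSU_5(q)`, `q` odd, `p = 2`.** -/
theorem many_small {n : ℕ} (hF : Fintype.card F = q ^ 2) (hn : n = 4 ∨ n = 5) (hq : Odd q) :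
    Many 2 (PSU n F q) 3 := by
  have hq2 := two_le hF
  rcases hn with rfl | rfl
  · obtain ⟨W, hW⟩ := exists_wframe_even (N := 4) (m := 2) hF (by norm_num)
    have h1 : Nat.card (toFrame W).V0 = 1 := by
      change Nat.card W.V0 = 1
      rw [hW]
      exact Nat.card_unique
    have h2 : Nat.card (toFrame W).Adm = q := by rw [card_adm (toFrame W) h1 (card_ok hF W), one_mul]
    refine many_of_frame (m := 2) hF (Or.inl rfl) hq W ?_ ?_
    · rw [h2]
      nlinarith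
    · rw [h2]
      exact hq2
  · obtain ⟨W, d, hd, hW⟩ := exists_wframe_odd (N := 5) (m := 2) hF (by norm_num)
    have hd0 : d ≠ 0 := by
      rintro rfl
      rw [herm_zero_left] at hd
      exact zero_ne_one hd
    have h1 : Nat.card (toFrame W).V0 = q ^ 2 := by
      change Nat.card W.V0 = q ^ 2
      rw [hW, ← hF, ← Nat.card_eq_fintype_card]
      exact (Nat.card_congr (LinearEquiv.toSpanNonzeroSingleton F (Fin 5 → F) d hd0).toEquiv).symm
    have h2 : Nat.card (toFrame W).Adm = q ^ 3 := by rw [card_adm (toFrame W) h1 (card_ok hF W), ← pow_succ]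
    refine many_of_frame (m := 3) hF (Or.inr rfl) hq W ?_ ?_
    · rw [h2]
      intro h3
      have := Nat.pow_right_injective hq2 h3
      omega
    · rw [h2]
      calc 2 ≤ q := hq2
        _ ≤ q ^ 3 := Nat.le_self_pow (by norm_num) q

end Cfsg.Agent.H519.Dl
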